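import Cfsg.Agent.Lib.MajorForm.Bound
import Cfsg.Agent.Lib.Block.Dominate

/-!
# The form of a block through the quotient by a central `p`-element
-/

set_option autoImplicit false
set_option linter.unusedSectionVars false
set_option linter.style.haveILetI false

namespace Cfsg.Agent.Lib.MajorForm

open Cfsg Cfsg.Agent.Lib Cfsg.Agent.Lib.Block
open scoped ComplexConjugate

universe u

variable {p : ℕ} {M : Ideal AlgInt} [M.IsPrime] {G : Type u} [Group G] [Finite G]

/-- The rank is at most the number of members. -/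
theorem blockRank_le_card (b : Set (IrrCharacter G)) : blockRank p b ≤ Nat.card b := by
  classical
  haveI := Fintype.ofFinite b
  rw [← finrank_regSpan, Nat.card_eq_fintype_card]
  have : regSpan p b =
      Submodule.span ℂ (Set.range fun χ : b => pRegularPart p (χ.1 : G → ℂ)) := by
    rw [regSpan]
    congr 1
    ext f
    simp
  rw [this]
  exact finrank_range_le_card _

variable {z : G}

theorem zpowers_le_center (hz : z ∈ Subgroup.center G) :
    Subgroup.zpowers z ≤ Subgroup.center G := Subgroup.zpowers_le.2 hz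

theorem sup_centralizer_eq_top {Z : Subgroup G} (hZ : Z ≤ Subgroup.center G) :
    Z ⊔ Subgroup.centralizer (Z : Set G) = ⊤ :=
  eq_top_iff.2 (le_trans (fun g _ => Subgroup.mem_centralizer_iff.2 fun q hq =>
    (Subgroup.mem_center_iff.1 (hZ hq) g).symm) le_sup_right)

/-- Trivial on the generator is trivial on the subgroup it generates. -/
theorem trivial_on_zpowers (hz : z ∈ Subgroup.center G) {η : IrrCharacter G}
    (h : (η : G → ℂ) z = (η : G → ℂ) 1) :
    ∀ q ∈ Subgroup.zpowers z, (η : G → ℂ) q = (η : G → ℂ) 1 := by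
  intro q hq
  haveI := Fintype.ofFinite G
  obtain ⟨k, hk⟩ := (isOfFinOrder_of_finite z).mem_powers_iff_mem_zpowers.2 hq
  simp only at hk
  rw [← hk, ← mul_one (z ^ k), center_pow_apply η hz 1 k, h, div_self (deg_ne_zero η),
    one_pow, one_mul]

variable (N : Subgroup G) [N.Normal]

/-- Pulling back to the regular elements. -/
noncomputable def pull (p : ℕ) : (G ⧸ N → ℂ) →ₗ[ℂ] (G → ℂ) where
  toFun f := pRegularPart p fun g : G => f (g : G ⧸ N)
  map_add' f f' := by
    funext g; simp only [pRegularPart_apply, Pi.add_apply]; split_ifs <;> simp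
  map_smul' c f := by
    funext g
    simp only [pRegularPart_apply, Pi.smul_apply, smul_eq_mul, RingHom.id_apply]
    split_ifs <;> simp

theorem pull_apply (f : G ⧸ N → ℂ) (g : G) :
    pull N p f g = if p ∣ orderOf g then 0 else f (g : G ⧸ N) :=
  pRegularPart_apply p (fun g : G => f (g : G ⧸ N)) g

theorem pull_pRegularPart [Fact p.Prime] (η : IrrCharacter (G ⧸ N)) :
    pull N p (pRegularPart p (η : G ⧸ N → ℂ)) = pRegularPart p (inflate N η : G → ℂ) := by
  funext g
  rw [pull_apply, pRegularPart_apply, pRegularPart_apply]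
  split_ifs with hg hq
  · rfl
  · exact absurd hq (regular_mk hg)
  · rfl

variable {N}

theorem classInner_pull [Fintype G] [Fintype (G ⧸ N)] (hM : IsPModular p M) (hN : IsPGroup p N)
    (hG : N ⊔ Subgroup.centralizer (N : Set G) = ⊤) {f f' : G ⧸ N → ℂ}
    (hf : ∀ q, p ∣ orderOf q → f q = 0) :
    (Nat.card N : ℂ) * classInner (pull N p f) (pull N p f') = classInner f f' := by
  classical
  haveI : Fact p.Prime := ⟨hM.1⟩
  have hsum : ∑ g : G, pull N p f g * conj (pull N p f' g) = ∑ q : G ⧸ N, f q * conj (f' q) := by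
    rw [← Finset.sum_filter_of_ne (s := (Finset.univ : Finset G)) (p := fun g => ¬ p ∣ orderOf g)
        fun g _ hne hg => hne (by rw [pull_apply, if_pos hg, zero_mul]),
      ← Finset.sum_filter_of_ne (s := (Finset.univ : Finset (G ⧸ N)))
        (p := fun q => ¬ p ∣ orderOf q) fun q _ hne hq => hne (by rw [hf q hq, zero_mul])]
    refine Finset.sum_bij (fun g _ => (g : G ⧸ N)) (fun g hg => ?_) (fun g hg g' hg' he => ?_)
      (fun q hq => ?_) fun g hg => ?_
    · exact Finset.mem_filter.2 ⟨Finset.mem_univ _, regular_mk (Finset.mem_filter.1 hg).2⟩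
    · exact eq_of_regular_mk_eq hM hN hG (Finset.mem_filter.1 hg).2 (Finset.mem_filter.1 hg').2 he
    · obtain ⟨g, hg, rfl⟩ := exists_regular_rep hN (Finset.mem_filter.1 hq).2
      exact ⟨g, Finset.mem_filter.2 ⟨Finset.mem_univ _, hg⟩, rfl⟩
    · rw [pull_apply, pull_apply, if_neg (Finset.mem_filter.1 hg).2,
        if_neg (Finset.mem_filter.1 hg).2]
  have hcard := Subgroup.card_eq_card_quotient_mul_card_subgroup N
  have h0 : (Nat.card (G ⧸ N) : ℂ) ≠ 0 := Nat.cast_ne_zero.2 Nat.card_pos.ne'
  have h1 : (Nat.card N : ℂ) ≠ 0 := Nat.cast_ne_zero.2 Nat.card_pos.ne'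
  simp only [classInner]
  rw [hsum, hcard, Nat.cast_mul]
  field_simp

/-- The members trivial at `N` form a block of the quotient. -/
theorem isPBlock_deflSet (hM : IsPModular p M) (hN : IsPGroup p N)
    (hG : N ⊔ Subgroup.centralizer (N : Set G) = ⊤) {b : Set (IrrCharacter G)} (hb : IsPBlock M b) :
    IsPBlock M (deflSet N b) ∧ ∀ Db : Subgroup (G ⧸ N), IsDefectGroup p M (deflSet N b) Db ↔
      ∃ P : Subgroup G, IsDefectGroup p M b P ∧ Db = P.map (QuotientGroup.mk' N) := by
  haveI : Fact p.Prime := ⟨hM.1⟩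
  obtain ⟨Bbar, hBb, hsub, hdef⟩ := exists_block_image_defect N hM hN hb
  obtain ⟨ψ₀, hψ₀⟩ := isPBlock_nonempty hBb
  have heq : deflSet N b = Bbar := by
    refine Set.ext fun ψ => ⟨fun h => ?_, hsub ψ⟩
    have hψ : SameBlock M (ψ₀ : G ⧸ N → ℂ) (ψ : G ⧸ N → ℂ) := by
      rw [← sameBlock_inflate_iff hM hN hG]
      exact sameBlock_of_mem hb (hsub ψ₀ hψ₀) h
    exact (mem_iff_sameBlock hBb hψ₀).2 hψ
  rw [heq]
  exact ⟨hBb, hdef⟩

variable (N) in
/-- The data of a block over a central `p`-element. -/
theorem rank_and_form [Fintype G] [Fintype (G ⧸ N)] (hM : IsPModular p M) {b : Set (IrrCharacter G)}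
    (hb : IsPBlock M b) (hz : z ∈ Subgroup.center G) (hzp : IsPElem p z)
    (hN : N = Subgroup.zpowers z) :
    blockRank p b = blockRank p (deflSet N b) ∧
      ∀ (d d' μ : ℕ), p ^ d' * orderOf z = p ^ d → HasFormMin p d' (deflSet N b) μ →
        HasFormMin p d b μ := by
  classical
  haveI : Fact p.Prime := ⟨hM.1⟩
  have hNp : IsPGroup p N := hN ▸ hzp.isPGroup_zpowers
  have hG : N ⊔ Subgroup.centralizer (N : Set G) = ⊤ :=
    sup_centralizer_eq_top (hN ▸ zpowers_le_center hz)
  set f₀ := Finset.univ.filter (fun q : IrrCharacter (G ⧸ N) => q ∈ deflSet N b) with hf₀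
  have hspan : ∀ ξ ∈ b, ∃ c : IrrCharacter (G ⧸ N) → ℤ,
      pRegularPart p (ξ : G → ℂ) = pull N p (regComb p (deflSet N b) c) := by
    intro ξ hξ
    obtain ⟨c, hc, he⟩ := exists_int_span hM hb hz hzp hξ
    refine ⟨fun η => c (inflate N η), ?_⟩
    rw [he, regComb, map_sum]
    symm
    refine Finset.sum_bij_ne_zero (fun η _ _ => inflate N η) (fun η _ _ => Finset.mem_univ _)
      (fun η _ _ η' _ _ h => ?_) (fun ξ' _ hne => ?_) (fun η _ hne => ?_)
    · refine Subtype.ext (funext fun q => ?_)
      obtain ⟨g, rfl⟩ := QuotientGroup.mk_surjective q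
      exact congrArg (fun χ : IrrCharacter G => (χ : G → ℂ) g) h
    · have hc0 : c ξ' ≠ 0 := fun h => hne (by rw [h, Int.cast_zero, zero_smul])
      obtain ⟨h1, h2⟩ := hc ξ' hc0
      obtain ⟨η, hη, hηe⟩ := Char.exists_irr_deflation ξ'.2 N (hN ▸ trivial_on_zpowers hz h2)
      have hinf : inflate N ⟨η, hη⟩ = ξ' := Subtype.ext (funext hηe)
      refine ⟨⟨η, hη⟩, Finset.mem_univ _, ?_, hinf⟩
      rw [if_pos (show (⟨η, hη⟩ : IrrCharacter (G ⧸ N)) ∈ deflSet N b by
        show inflate N ⟨η, hη⟩ ∈ b; rw [hinf]; exact h1), map_smul, pull_pRegularPart, hinf]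
      exact hne
    · have hη : η ∈ deflSet N b := by
        by_contra h
        rw [if_neg h, map_zero] at hne
        exact hne rfl
      rw [if_pos hη, map_smul, pull_pRegularPart]
  have hsupp : ∀ c : IrrCharacter (G ⧸ N) → ℤ, ∀ q, p ∣ orderOf q →
      regComb p (deflSet N b) c q = 0 := by
    intro c q hq
    rw [regComb, Finset.sum_apply]
    refine Finset.sum_eq_zero fun η _ => ?_
    split_ifs
    · rw [Pi.smul_apply, pRegularPart_apply, if_pos hq, smul_zero]
    · rfl
  constructor
  · have hmap : (regSpan p (deflSet N b)).map (pull N p) = regSpan p b := by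
      refine le_antisymm (Submodule.map_le_iff_le_comap.2 (Submodule.span_le.2 ?_))
        (Submodule.span_le.2 ?_)
      · rintro _ ⟨η, hη, rfl⟩
        rw [SetLike.mem_coe, Submodule.mem_comap, pull_pRegularPart]
        exact Submodule.subset_span ⟨_, hη, rfl⟩
      · rintro _ ⟨ξ, hξ, rfl⟩
        obtain ⟨c, hc⟩ := hspan ξ hξ
        refine ⟨regComb p (deflSet N b) c, ?_, hc.symm⟩
        refine Submodule.sum_mem _ fun η _ => ?_
        split_ifs with hη
        · exact Submodule.smul_mem _ _ (Submodule.subset_span ⟨η, hη, rfl⟩)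
        · exact zero_mem _
    have hzero : ∀ f ∈ regSpan p (deflSet N b), ∀ q, p ∣ orderOf q → f q = 0 := by
      intro f hf q hq
      induction hf using Submodule.span_induction with
      | mem f hf =>
        obtain ⟨ψ, -, rfl⟩ := hf
        show pRegularPart p (ψ : G ⧸ N → ℂ) q = 0
        rw [pRegularPart_apply, if_pos hq]
      | zero => rfl
      | add f g _ _ h1 h2 => rw [Pi.add_apply, h1, h2, add_zero]
      | smul c f _ h1 => rw [Pi.smul_apply, h1, smul_zero]
    have hinj : Set.InjOn (pull N p) (regSpan p (deflSet N b)) := by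
      intro f hf f' hf' he
      funext q
      by_cases hq : p ∣ orderOf q
      · rw [hzero f hf q hq, hzero f' hf' q hq]
      · obtain ⟨g, hg, rfl⟩ := exists_regular_rep hNp hq
        have h := congrFun he g
        rwa [pull_apply, pull_apply, if_neg hg, if_neg hg] at h
    rw [← finrank_regSpan, ← finrank_regSpan, ← hmap]
    exact ((LinearEquiv.ofBijective ((pull N p).submoduleMap (regSpan p (deflSet N b)))
      ⟨fun a c h => Subtype.ext (hinj a.2 c.2 (congrArg Subtype.val h)),
        (pull N p).submoduleMap_surjective _⟩).finrank_eq).symm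
  · intro d d' μ hdd hmin c
    choose e he using hspan
    let c' : IrrCharacter (G ⧸ N) → ℤ := fun η =>
      ∑ ξ : IrrCharacter G, if h : ξ ∈ b then c ξ * e ξ h η else 0
    have hcomb : regComb p b c = pull N p (regComb p (deflSet N b) c') := by
      simp only [regComb, map_sum, apply_ite (pull N p), map_smul, map_zero, c', Int.cast_sum,
        Finset.sum_smul]
      rw [Finset.sum_congr rfl fun η _ => show (if η ∈ deflSet N b then
        ∑ ξ : IrrCharacter G, (((if h : ξ ∈ b then c ξ * e ξ h η else 0 : ℤ)) : ℂ) •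
          pull N p (pRegularPart p (η : G ⧸ N → ℂ)) else 0) =
        ∑ ξ : IrrCharacter G, if η ∈ deflSet N b then
          (((if h : ξ ∈ b then c ξ * e ξ h η else 0 : ℤ)) : ℂ) •
            pull N p (pRegularPart p (η : G ⧸ N → ℂ)) else 0 by split_ifs <;> simp,
        Finset.sum_comm]
      refine Finset.sum_congr rfl fun ξ _ => ?_
      by_cases hξ : ξ ∈ b
      · rw [if_pos hξ, he ξ hξ]
        simp only [regComb, map_sum, apply_ite (pull N p), map_smul, map_zero, Finset.smul_sum,
          dif_pos hξ]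
        refine Finset.sum_congr rfl fun η _ => ?_
        split_ifs
        · rw [Int.cast_mul, mul_smul]
        · rw [smul_zero]
      · rw [if_neg hξ]
        exact (Finset.sum_eq_zero fun η _ => by simp [dif_neg hξ]).symm
    rcases hmin c' with h | h
    · left; rw [hcomb, h, map_zero]
    · right
      have hcl := classInner_pull hM hNp hG (f' := regComb p (deflSet N b) c') (hsupp c')
      have hcard : Nat.card N = orderOf z := by rw [hN, Nat.card_zpowers]
      rw [← hcl, hcard, ← mul_assoc] at h
      rw [hcomb]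
      convert h using 4
      exact_mod_cast hdd.symm

end Cfsg.Agent.Lib.MajorForm
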